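import Cfsg.Agent.Lib.Subnormal.BaerSuzuki
import Cfsg.Agent.Lib.Cores.PCore
import Cfsg.Agent.Lib.FFModules.SL2Pair.Core
import Cfsg.Agent.Lib.NormalPComplement.Basic

/-!
Groups with abelian Sylow 2-subgroups, `O₂ = 1` and no `S₃` generated by two involutions (of a given
class) have no quadratic failure-of-factorisation offenders in characteristic two.
-/

set_option autoImplicit false
set_option linter.style.haveILetI false

universe u v

namespace CfsgLib.QdFree

open Cfsg CfsgLib.FFModules.SL2Pair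

section Basic

variable {L : Type u} [Group L] {W : Type v} [AddCommGroup W] [DistribMulAction L W]

/-- A quadratic offender in characteristic two. -/
structure IsTwoOffender (A : Subgroup L) (W : Type v) [AddCommGroup W] [DistribMulAction L W] :
    Prop where
  ne_bot : A ≠ ⊥
  sq : ∀ a ∈ A, a * a = 1
  quad : ∀ a ∈ A, ∀ w : W, a • w - w ∈ fixedSub A
  offender : Nat.card W ≤ Nat.card A * Nat.card (fixedSub A : AddSubgroup W)

theorem mem_fixed_conj {A : Subgroup L} {g : L} {w : W} :
    w ∈ fixedSub (A.map (MulAut.conj g).toMonoidHom) ↔ g⁻¹ • w ∈ fixedSub A :=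
  mem_fixedSub_conj

theorem card_fixed_conj (A : Subgroup L) (g : L) :
    Nat.card (fixedSub (A.map (MulAut.conj g).toMonoidHom) : AddSubgroup W) =
      Nat.card (fixedSub A : AddSubgroup W) :=
  Nat.card_congr
    { toFun := fun v => ⟨g⁻¹ • (v : W), mem_fixed_conj.1 v.2⟩
      invFun := fun v => ⟨g • (v : W), mem_fixed_conj.2 (by rw [inv_smul_smul]; exact v.2)⟩
      left_inv := fun v => Subtype.ext (smul_inv_smul _ _)
      right_inv := fun v => Subtype.ext (inv_smul_smul _ _) }

theorem IsTwoOffender.conj {A : Subgroup L} (h : IsTwoOffender A W) (g : L) :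
    IsTwoOffender (A.map (MulAut.conj g).toMonoidHom) W where
  ne_bot e := h.ne_bot ((Subgroup.map_eq_bot_iff_of_injective A (MulAut.conj g).injective).1 e)
  sq := by
    rintro _ ⟨a, ha, rfl⟩
    rw [← map_mul, h.sq a ha, map_one]
  quad := by
    rintro _ ⟨a, ha, rfl⟩ w
    rw [mem_fixed_conj]
    show g⁻¹ • ((g * a * g⁻¹) • w - w) ∈ _
    rw [smul_sub, smul_smul, show g⁻¹ * (g * a * g⁻¹) = a * g⁻¹ by group, mul_smul]
    exact h.quad a ha _
  offender := by
    rw [card_fixed_conj, Subgroup.card_map_of_injective (MulAut.conj g).injective]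
    exact h.offender

variable [Finite L]

/-- An element of odd order centralising a 2-group fixes everything once it fixes that group's fixed points. -/
theorem smul_eq_of_fix_fixedSub [Finite W] (hW : ∀ w : W, w + w = 0) {Q : Subgroup L}
    (hQ : IsPGroup 2 Q) {x : L} {m : ℕ} (hm : Odd m) (hxm : x ^ m = 1)
    (hc : ∀ q ∈ Q, Commute q x) (hfix : ∀ v ∈ (fixedSub Q : AddSubgroup W), x • v = v) (w : W) :
    x • w = w := by
  classical
  have heven : ∀ (k : ℕ) (v : W), (k + k) • v = 0 := fun k v => by rw [add_nsmul]; exact hW _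
  let φ : W →+ W :=
    { toFun := fun v => x • v - v
      map_zero' := by simp
      map_add' := fun a b => by rw [smul_add]; abel }
  let D : SubMulAction Q W :=
    { carrier := Set.range φ
      smul_mem' := by
        rintro ⟨q, hq⟩ _ ⟨v, rfl⟩
        refine ⟨q • v, ?_⟩
        show x • q • v - q • v = q • (x • v - v)
        rw [smul_sub, ← mul_smul, ← mul_smul, (hc q hq).eq] }
  by_contra hne
  haveI : Fact (Nat.Prime 2) := ⟨Nat.prime_two⟩
  have h0 : (⟨0, ⟨0, map_zero φ⟩⟩ : D) ∈ MulAction.fixedPoints Q D := fun q => Subtype.ext (smul_zero _)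
  have hcard : 2 ∣ Nat.card D := by
    have e : Nat.card D = Nat.card φ.range := rfl
    haveI : Nontrivial φ.range := ⟨⟨0, zero_mem _⟩, ⟨x • w - w, w, rfl⟩, fun h =>
      hne (sub_eq_zero.1 (congrArg Subtype.val h).symm)⟩
    have hpos := Finite.one_lt_card (α := φ.range)
    have hd : addOrderOf (⟨x • w - w, w, rfl⟩ : φ.range) = 2 :=
      addOrderOf_eq_prime (Subtype.ext (by rw [two_nsmul]; exact hW _))
        fun h => hne (sub_eq_zero.1 (congrArg Subtype.val h))
    rw [e, ← hd]
    exact addOrderOf_dvd_natCard _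
  obtain ⟨⟨d, u, hu⟩, hd, hd0⟩ :=
    hQ.exists_fixed_point_of_prime_dvd_card_of_fixed_point D hcard h0
  have hdfix : x • d = d := hfix d fun q hq => congrArg Subtype.val (hd ⟨q, hq⟩)
  have hu' : x • u = d + u := by rw [← hu]; show x • u = x • u - u + u; abel
  have key : ∀ k : ℕ, x ^ k • u = k • d + u := by
    intro k
    induction k with
    | zero => simp
    | succ k ih =>
      have hk : x • (k • d) = k • d := by
        rw [show x • (k • d) = k • (x • d) from map_nsmul (DistribMulAction.toAddMonoidHom W x) k d,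
          hdfix]
      rw [pow_succ', mul_smul, ih, smul_add, hk, hu', succ_nsmul]
      abel
  have hmd : m • d = 0 := by
    have := key m
    rw [hxm, one_smul] at this
    exact right_eq_add.1 this
  obtain ⟨k, rfl⟩ := hm
  rw [add_nsmul, one_nsmul, two_mul, heven, zero_add] at hmd
  exact hd0 (Subtype.ext hmd.symm)


/-- A minimal offender. -/
def IsMinOffender (A : Subgroup L) (W : Type v) [AddCommGroup W] [DistribMulAction L W] : Prop :=
  IsTwoOffender A W ∧ ∀ B : Subgroup L, B ≤ A → IsTwoOffender B W → B = A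

omit [Finite L] in
theorem IsMinOffender.conj {A : Subgroup L} (h : IsMinOffender A W) (g : L) :
    IsMinOffender (A.map (MulAut.conj g).toMonoidHom) W := by
  refine ⟨h.1.conj g, fun B hB hBo => ?_⟩
  have e := h.2 (B.map (MulAut.conj g⁻¹).toMonoidHom) ?_ (hBo.conj g⁻¹)
  · rw [← e, Subgroup.map_map]
    refine SetLike.ext fun x => ?_
    simp [mul_assoc]
  · rintro _ ⟨b, hb, rfl⟩
    obtain ⟨a, ha, rfl⟩ := hB hb
    simpa [mul_assoc] using ha

theorem exists_isMinOffender_le {A : Subgroup L} (h : IsTwoOffender A W) :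
    ∃ B ≤ A, IsMinOffender B W := by
  obtain ⟨B, ⟨hBA, hB⟩, hmin⟩ :=
    ({B : Subgroup L | B ≤ A ∧ IsTwoOffender B W}).toFinite.exists_minimal ⟨A, le_rfl, h⟩
  exact ⟨B, hBA, hB, fun C hC hCo => le_antisymm hC (hmin ⟨hC.trans hBA, hCo⟩ hC)⟩

end Basic

/-- The inductive form of `false_of_isTwoOffender`. -/
theorem false_of_isTwoOffender_aux : ∀ (n : ℕ) (L : Type u) [Group L] [Finite L] (W : Type v)
    [AddCommGroup W] [Finite W] [DistribMulAction L W], Nat.card L + Nat.card W = n →
    (∀ w : W, w + w = 0) → (∀ g : L, (∀ w : W, g • w = w) → g = 1) → pCore 2 L = ⊥ →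
    (∀ S : Subgroup L, IsPGroup 2 S → ∀ a ∈ S, ∀ b ∈ S, Commute a b) →
    ∀ (Inv : L → Prop), (∀ g a, Inv a → Inv (g * a * g⁻¹)) →
    (∀ a b, Inv a → Inv b → ¬ 3 ∣ orderOf (a * b)) →
    ∀ A : Subgroup L, IsMinOffender A W → (∀ a ∈ A, a ≠ 1 → Inv a) → False := by
  classical
  intro n
  induction n using Nat.strong_induction_on with
  | _ n ih =>
  intro L _ _ W _ _ _ hn hW hfaith hcore hab Inv hInvc hInv A₀ hA₀ hA₀I
  haveI : Fact (Nat.Prime 2) := ⟨Nat.prime_two⟩
  have h2grp : ∀ A : Subgroup L, IsTwoOffender A W → IsPGroup 2 A := fun A h a =>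
    ⟨1, Subtype.ext (by rw [pow_one, sq]; exact h.sq a a.2)⟩
  -- in a proper subgroup centralising its 2-core a minimal offender lies in the 2-core
  have hcentral : ∀ A : Subgroup L, IsMinOffender A W → (∀ a ∈ A, a ≠ 1 → Inv a) →
      ∀ K : Subgroup L, A ≤ K → K ≠ ⊤ →
      (∀ q ∈ (pCore 2 K).map K.subtype, ∀ k ∈ K, Commute q k) → A ≤ (pCore 2 K).map K.subtype := by
    intro A hAm hAI K hAK hK hcen
    have hA := hAm.1
    by_contra hAQ
    set Q := (pCore 2 K).map K.subtype with hQdef
    have hQ2 : IsPGroup 2 Q := (CfsgLib.Cores.isPGroup_pCore 2 K).map _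
    have hQK : Q ≤ K := Subgroup.map_subtype_le _
    let V1 : AddSubgroup W := fixedSub Q
    have hinv : ∀ k ∈ K, ∀ v ∈ V1, k • v ∈ V1 := fun k hk v hv q hq => by
      rw [← mul_smul, (hcen q hq k hk).eq, mul_smul, hv q hq]
    let ρ : K →* AddMonoid.End V1 :=
      { toFun := fun k =>
          { toFun := fun v => ⟨(k : L) • (v : W), hinv k k.2 v v.2⟩
            map_zero' := Subtype.ext (smul_zero _)
            map_add' := fun a b => Subtype.ext (smul_add _ _ _) }
        map_one' := AddMonoidHom.ext fun v => Subtype.ext (one_smul L (v : W))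
        map_mul' := fun a b => AddMonoidHom.ext fun v => Subtype.ext (mul_smul (a : L) (b : L) (v : W)) }
    let ρ' : K ⧸ pCore 2 K →* AddMonoid.End V1 := QuotientGroup.lift _ ρ fun q hq =>
      AddMonoidHom.ext fun v => Subtype.ext (v.2 _ ⟨q, hq, rfl⟩)
    letI : DistribMulAction (K ⧸ pCore 2 K) V1 := DistribMulAction.compHom V1 ρ'
    have hsm : ∀ (k : K) (v : V1), ((((k : K ⧸ pCore 2 K)) • v : V1) : W) = (k : L) • (v : W) :=
      fun k v => rfl
    let π := QuotientGroup.mk' (pCore 2 K)
    have hpre : ∀ S : Subgroup (K ⧸ pCore 2 K), IsPGroup 2 S → IsPGroup 2 (S.comap π) := fun S hS =>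
      hS.comap_of_ker_isPGroup _ (by
        rw [QuotientGroup.ker_mk']; exact CfsgLib.Cores.isPGroup_pCore 2 K)
    have hfix1 : ∀ k : K, (∀ v ∈ V1, (k : L) • v = v) → k ∈ pCore 2 K := by
      let R : Subgroup K :=
        { carrier := {k | ∀ v ∈ V1, (k : L) • v = v}
          one_mem' := fun v _ => one_smul L v
          mul_mem' := fun {a b} ha hb v hv => by rw [Subgroup.coe_mul, mul_smul, hb v hv, ha v hv]
          inv_mem' := fun {a} ha v hv => by rw [Subgroup.coe_inv, inv_smul_eq_iff, ha v hv] }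
      haveI : R.Normal := ⟨fun r hr k v hv => by
        show ((k : L) * r * (k : L)⁻¹) • v = v
        rw [mul_smul, mul_smul, hr _ (hinv _ (inv_mem k.2) v hv), smul_inv_smul]⟩
      have hR : IsPGroup 2 R := by
        rintro ⟨r, hr⟩
        obtain ⟨e, he⟩ :=
          CfsgLib.NormalPComplement.exists_pow_coprime_orderOf (p := 2) (isOfFinOrder_of_finite r)
        refine ⟨e, Subtype.ext (Subtype.ext (hfaith _ fun w => ?_))⟩
        refine smul_eq_of_fix_fixedSub hW hQ2 (m := orderOf (r ^ 2 ^ e))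
          (Nat.coprime_two_right.1 he) ?_ (fun q hq => hcen q hq _ (r ^ 2 ^ e).2)
          (fun v hv => (pow_mem hr _ : r ^ 2 ^ e ∈ R) v hv) w
        rw [← Subgroup.coe_pow, pow_orderOf_eq_one]; rfl
      exact fun k hk => CfsgLib.Cores.le_pCore hR hk
    set Ab := (A.subgroupOf K).map π with hAbdef
    have hAb : IsTwoOffender Ab V1 := by
      have hmem : ∀ v : V1, (v : W) ∈ fixedSub A → v ∈ fixedSub Ab := by
        rintro v hv _ ⟨a, ha, rfl⟩
        exact Subtype.ext ((hsm a v).trans (hv _ ha))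
      refine ⟨fun h => hAQ fun a ha => ?_, ?_, ?_, ?_⟩
      · have h1 : π ⟨a, hAK ha⟩ ∈ Ab := ⟨_, ha, rfl⟩
        rw [h, Subgroup.mem_bot] at h1
        exact ⟨⟨a, hAK ha⟩, (QuotientGroup.eq_one_iff _).1 h1, rfl⟩
      · rintro _ ⟨a, ha, rfl⟩
        rw [← map_mul, show a * a = 1 from Subtype.ext (hA.sq _ ha), map_one]
      · rintro _ ⟨a, ha, rfl⟩ v
        refine hmem _ ?_
        rw [AddSubgroup.coe_sub, show ((π a • v : V1) : W) = (a : L) • (v : W) from hsm a v]
        exact hA.quad _ ha _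
      · -- the offender inequality
        set D := A ⊓ Q with hD
        let C : AddSubgroup W := fixedSub A
        have hcA : Nat.card Ab * Nat.card D = Nat.card A := by
          rw [hAbdef, ← Subgroup.relIndex_ker, QuotientGroup.ker_mk',
            ← Subgroup.relIndex_map_map_of_injective _ _ K.subtype_injective,
            Subgroup.map_subgroupOf_eq_of_le hAK, ← hQdef, ← Subgroup.inf_relIndex_left,
            ← hD, mul_comm, ← Subgroup.relIndex_bot_left, Subgroup.relIndex_mul_relIndex _ _ _ bot_le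
              inf_le_left, Subgroup.relIndex_bot_left]
        have hDf : Nat.card D * Nat.card (fixedSub D : AddSubgroup W) ≤ Nat.card A * Nat.card C := by
          by_cases hD1 : D = ⊥
          · rw [hD1, Subgroup.card_bot, one_mul]
            exact (AddSubgroup.card_le_card_addGroup _).trans hA.offender
          · refine le_trans (le_of_not_ge fun hge => hAQ ?_) hA.offender
            have : D = A := hAm.2 D inf_le_left ⟨hD1, fun a ha => hA.sq a ha.1,
              fun a ha w => fixedSub_anti inf_le_left (hA.quad a ha.1 w), hge⟩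
            rw [← this]
            exact inf_le_right
        let f : V1 × C →+ (fixedSub D : AddSubgroup W) :=
          (AddSubgroup.inclusion (fixedSub_anti inf_le_right)).comp (AddMonoidHom.fst _ _) +
            (AddSubgroup.inclusion (fixedSub_anti inf_le_left)).comp (AddMonoidHom.snd _ _)
        have hk : Nat.card f.ker ≤ Nat.card (fixedSub Ab : AddSubgroup V1) := by
          refine Nat.card_le_card_of_injective (fun z => ⟨(z : V1 × C).1, hmem _ ?_⟩) ?_
          · have hz : ((z : V1 × C).1 : W) + ((z : V1 × C).2 : W) = 0 := congrArg Subtype.val z.2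
            rw [eq_neg_of_add_eq_zero_left hz]
            exact neg_mem (z : V1 × C).2.2
          · intro z z' h
            have h1 : (z : V1 × C).1 = (z' : V1 × C).1 := congrArg Subtype.val h
            have hz : ((z : V1 × C).1 : W) + ((z : V1 × C).2 : W) = 0 := congrArg Subtype.val z.2
            have hz' : ((z' : V1 × C).1 : W) + ((z' : V1 × C).2 : W) = 0 := congrArg Subtype.val z'.2
            rw [h1] at hz
            exact Subtype.ext (Prod.ext h1 (Subtype.ext (add_left_cancel (hz.trans hz'.symm))))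
        have hle : Nat.card V1 * Nat.card C ≤
            Nat.card (fixedSub D : AddSubgroup W) * Nat.card (fixedSub Ab : AddSubgroup V1) := by
          calc Nat.card V1 * Nat.card C = Nat.card (V1 × C) := (Nat.card_prod _ _).symm
            _ = Nat.card f.range * Nat.card f.ker := by
                rw [AddSubgroup.card_eq_card_quotient_mul_card_addSubgroup f.ker,
                  Nat.card_congr (QuotientAddGroup.quotientKerEquivRange f).toEquiv]
            _ ≤ _ := Nat.mul_le_mul (AddSubgroup.card_le_card_addGroup _) hk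
        have hfD : Nat.card (fixedSub D : AddSubgroup W) ≤ Nat.card Ab * Nat.card C := by
          refine Nat.le_of_mul_le_mul_left ?_ (Nat.card_pos (α := D))
          refine hDf.trans (le_of_eq ?_)
          rw [← hcA]; ring
        refine Nat.le_of_mul_le_mul_right (hle.trans ?_) (Nat.card_pos (α := C))
        refine (Nat.mul_le_mul_right _ hfD).trans (le_of_eq ?_)
        ring
    obtain ⟨B, hBA, hBm⟩ := exists_isMinOffender_le hAb
    refine ih _ ?_ (K ⧸ pCore 2 K) V1 rfl (fun v => Subtype.ext (hW _)) ?_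
      (CfsgLib.Cores.pCore_quotient_pCore 2 K) ?_ (fun q => ∃ k : K, π k = q ∧ Inv k) ?_ ?_ B hBm ?_
    · rw [← hn]
      refine add_lt_add_of_lt_of_le (lt_of_le_of_lt
        (Nat.card_le_card_of_surjective π (QuotientGroup.mk'_surjective _)) ?_)
        (AddSubgroup.card_le_card_addGroup V1)
      exact lt_of_le_of_ne (Subgroup.card_le_card_group K) fun e =>
        hK (@Subgroup.eq_top_of_card_eq L _ K inferInstance e)
    · intro q hq
      obtain ⟨k, rfl⟩ := QuotientGroup.mk'_surjective _ q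
      refine (QuotientGroup.eq_one_iff _).2 (hfix1 k fun v hv => ?_)
      exact (hsm k ⟨v, hv⟩).symm.trans (congrArg Subtype.val (hq ⟨v, hv⟩))
    · intro S hS a ha b hb
      obtain ⟨a, rfl⟩ := QuotientGroup.mk'_surjective _ a
      obtain ⟨b, rfl⟩ := QuotientGroup.mk'_surjective _ b
      have hc := hab _ ((hpre S hS).map K.subtype) _ ⟨a, ha, rfl⟩ _ ⟨b, hb, rfl⟩
      have hc' : Commute a b := Subtype.ext hc
      exact hc'.map π
    · rintro g _ ⟨k, rfl, hk⟩
      obtain ⟨g, rfl⟩ := QuotientGroup.mk'_surjective _ g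
      exact ⟨g * k * g⁻¹, by simp [π], hInvc _ _ hk⟩
    · rintro _ _ ⟨a, rfl, ha⟩ ⟨b, rfl, hb⟩ h
      refine hInv _ _ ha hb ?_
      rw [← map_mul] at h
      have := h.trans (orderOf_map_dvd π (a * b))
      rwa [← Subgroup.orderOf_coe, Subgroup.coe_mul] at this
    · rintro q hq hq1
      obtain ⟨a, ha, rfl⟩ := hBA hq
      exact ⟨a, rfl, hAI _ ha fun e => hq1 (by rw [show a = 1 from Subtype.ext e, map_one])⟩
  -- ... and so does it in every proper subgroup
  have hproper : ∀ A : Subgroup L, IsMinOffender A W → (∀ a ∈ A, a ≠ 1 → Inv a) →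
      ∀ K : Subgroup L, A ≤ K → K ≠ ⊤ → A ≤ (pCore 2 K).map K.subtype := by
    intro A hAm hAI K hAK hK
    set Q := (pCore 2 K).map K.subtype with hQdef
    set K1 := K ⊓ Subgroup.centralizer (Q : Set L) with hK1
    have hAK1 : A ≤ K1 := by
      refine le_inf hAK fun a ha => Subgroup.mem_centralizer_iff.2 ?_
      rintro _ ⟨q, hq, rfl⟩
      have h2 : IsPGroup 2 ((A.subgroupOf K ⊔ pCore 2 K).map K.subtype) :=
        (IsPGroup.to_sup_of_normal_right ((h2grp A hAm.1).comap_subtype)
          (CfsgLib.Cores.isPGroup_pCore 2 K)).map _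
      exact hab _ h2 _ ⟨q, Subgroup.mem_sup_right hq, rfl⟩ _ ⟨⟨a, hAK ha⟩, Subgroup.mem_sup_left ha, rfl⟩
    haveI : (K1.subgroupOf K).Normal := by
      refine ⟨fun k hk g => ⟨(g * k * g⁻¹).2, Subgroup.mem_centralizer_iff.2 ?_⟩⟩
      rintro _ ⟨q, hq, rfl⟩
      have := Subgroup.mem_centralizer_iff.1 hk.2 _
        ⟨g⁻¹ * q * g, by simpa using (inferInstance : (pCore 2 K).Normal).conj_mem q hq g⁻¹, rfl⟩
      simp only [Subgroup.coe_subtype, Subgroup.coe_mul, Subgroup.coe_inv] at this ⊢
      calc (q : L) * ((g : L) * k * (g : L)⁻¹) = g * ((g : L)⁻¹ * q * g * k) * (g : L)⁻¹ := by group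
        _ = g * ((k : L) * ((g : L)⁻¹ * q * g)) * (g : L)⁻¹ := by rw [this]
        _ = _ := by group
    have hR : (pCore 2 K1).map K1.subtype ≤ Q := by
      rintro _ ⟨r, hr, rfl⟩
      have e := CfsgLib.Cores.map_pCore_equiv (p := 2)
        (Subgroup.subgroupOfEquivOfLe (inf_le_left : K1 ≤ K))
      rw [← e] at hr
      obtain ⟨m, hm, rfl⟩ := hr
      exact ⟨(m : K), CfsgLib.Cores.map_subtype_pCore_le
        (Subgroup.Normal.isSubnormal inferInstance) ⟨m, hm, rfl⟩, rfl⟩
    refine (hcentral A hAm hAI K1 hAK1 (fun e => hK (top_le_iff.1 (e ▸ inf_le_left))) ?_).trans hR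
    exact fun q hq k hk => Subgroup.mem_centralizer_iff.1 hk.2 q (hR hq)
  have hIconj : ∀ g : L, ∀ a ∈ A₀.map (MulAut.conj g).toMonoidHom, a ≠ 1 → Inv a := by
    rintro g _ ⟨a, ha, rfl⟩ h1
    exact hInvc g a (hA₀I a ha fun e => h1 (by rw [e, map_one]))
  -- two conjugates generate `L`
  obtain ⟨a₀, ha₀, ha₀1⟩ := (Subgroup.ne_bot_iff_exists_ne_one).1 hA₀.1.ne_bot |>.elim
    fun a ha => (⟨a.1, a.2, fun e => ha (Subtype.ext e)⟩ : ∃ a ∈ A₀, a ≠ 1)
  obtain ⟨g, hg⟩ : ∃ g : L, ¬ IsPGroup 2 ↥(Subgroup.closure ({a₀, g * a₀ * g⁻¹} : Set L)) := by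
    by_contra h
    push_neg at h
    have := CfsgLib.Subnormal.mem_pCore_of_forall_closure_pair h
    rw [hcore, Subgroup.mem_bot] at this
    exact ha₀1 this
  set A₁ := A₀.map (MulAut.conj g).toMonoidHom with hA₁def
  have hA₁ : IsMinOffender A₁ W := hA₀.conj g
  have htop : A₀ ⊔ A₁ = ⊤ := by
    by_contra hne
    have h0 := hproper A₀ hA₀ hA₀I _ le_sup_left hne
    have h1 := hproper A₁ hA₁ (hIconj g) _ le_sup_right hne
    refine hg (IsPGroup.to_le ((CfsgLib.Cores.isPGroup_pCore 2 _).map (A₀ ⊔ A₁).subtype) ?_)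
    rw [Subgroup.closure_le]
    rintro x (rfl | rfl)
    · exact h0 ha₀
    · exact h1 ⟨a₀, ha₀, rfl⟩
  -- the fixed points of `L` vanish
  set Z0 : AddSubgroup W := fixedSub (⊤ : Subgroup L) with hZ0
  by_cases hZ : Z0 = ⊥
  swap
  · let φ : L →* AddMonoid.End (W ⧸ Z0) :=
      { toFun := fun x => QuotientAddGroup.map Z0 Z0 (DistribMulAction.toAddMonoidHom W x)
          fun z hz => show x • z ∈ Z0 by rw [hz x trivial]; exact hz
        map_one' := by
          refine AddMonoidHom.ext fun v => ?_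
          obtain ⟨v, rfl⟩ := QuotientAddGroup.mk_surjective v
          exact congrArg QuotientAddGroup.mk (one_smul L v)
        map_mul' := fun x y => by
          refine AddMonoidHom.ext fun v => ?_
          obtain ⟨v, rfl⟩ := QuotientAddGroup.mk_surjective v
          exact congrArg QuotientAddGroup.mk (mul_smul x y v) }
    letI : DistribMulAction L (W ⧸ Z0) := DistribMulAction.compHom _ φ
    have hsm : ∀ (x : L) (v : W), x • (v : W ⧸ Z0) = ((x • v : W) : W ⧸ Z0) := fun x v => rfl
    have hoff : IsTwoOffender A₀ (W ⧸ Z0) := by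
      refine ⟨hA₀.1.ne_bot, hA₀.1.sq, ?_, ?_⟩
      · intro a ha v
        obtain ⟨v, rfl⟩ := QuotientAddGroup.mk_surjective v
        intro b hb
        rw [hsm, ← QuotientAddGroup.mk_sub, hsm, hA₀.1.quad a ha v b hb]
      · let f : (fixedSub A₀ : AddSubgroup W) →+ (fixedSub A₀ : AddSubgroup (W ⧸ Z0)) :=
          { toFun := fun c => ⟨((c : W) : W ⧸ Z0), fun a ha => by rw [hsm, c.2 a ha]⟩
            map_zero' := rfl
            map_add' := fun _ _ => rfl }
        have hk : Nat.card f.ker ≤ Nat.card Z0 :=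
          Nat.card_le_card_of_injective (fun c => ⟨(c.1 : W),
            (QuotientAddGroup.eq_zero_iff _).1 (congrArg Subtype.val c.2)⟩)
            fun c c' h => Subtype.ext (Subtype.ext (Subtype.mk.inj h :))
        have hC : Nat.card (fixedSub A₀ : AddSubgroup W) ≤
            Nat.card (fixedSub A₀ : AddSubgroup (W ⧸ Z0)) * Nat.card Z0 := by
          rw [AddSubgroup.card_eq_card_quotient_mul_card_addSubgroup f.ker,
            Nat.card_congr (QuotientAddGroup.quotientKerEquivRange f).toEquiv]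
          exact Nat.mul_le_mul (AddSubgroup.card_le_card_addGroup _) hk
        refine Nat.le_of_mul_le_mul_right ?_ (Nat.card_pos (α := Z0))
        rw [← AddSubgroup.card_eq_card_quotient_mul_card_addSubgroup Z0, mul_assoc]
        exact hA₀.1.offender.trans (Nat.mul_le_mul_left _ hC)
    obtain ⟨B, hBA, hBm⟩ := exists_isMinOffender_le hoff
    refine ih _ ?_ L (W ⧸ Z0) rfl ?_ ?_ hcore hab Inv hInvc hInv B hBm fun a ha => hA₀I a (hBA ha)
    · rw [← hn, AddSubgroup.card_eq_card_quotient_mul_card_addSubgroup Z0 (α := W)]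
      refine Nat.add_lt_add_left ?_ _
      have : 1 < Nat.card Z0 := (AddSubgroup.one_lt_card_iff_ne_bot Z0).2 hZ
      exact lt_mul_of_one_lt_right Nat.card_pos this
    · intro v
      obtain ⟨v, rfl⟩ := QuotientAddGroup.mk_surjective v
      rw [← QuotientAddGroup.mk_add, hW]; rfl
    · intro x hx
      let R : Subgroup L :=
        { carrier := {x | ∀ v : W, x • (v : W ⧸ Z0) = v}
          one_mem' := fun v => one_smul L _
          mul_mem' := fun {a b} ha hb v => by rw [mul_smul, hb v, ha v]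
          inv_mem' := fun {a} ha v => by rw [inv_smul_eq_iff, ha v] }
      haveI : R.Normal := ⟨fun r hr k v => by
        show (k * r * k⁻¹) • (v : W ⧸ Z0) = v
        rw [mul_smul, mul_smul, hsm k⁻¹ v, hr (k⁻¹ • v), ← hsm, smul_inv_smul]⟩
      have hR : IsPGroup 2 R := by
        rintro ⟨r, hr⟩
        refine ⟨1, Subtype.ext (hfaith _ fun v => ?_)⟩
        show (r ^ 2 ^ 1) • v = v
        have hz : r • v - v ∈ Z0 := (QuotientAddGroup.eq_iff_sub_mem).1 (hr v)
        have hzr : r • (r • v - v) = r • v - v := hz r trivial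
        have e2 : r • r • v = r • v + (r • v - v) := by
          exact sub_eq_iff_eq_add'.1 (by rw [← smul_sub, hzr])
        rw [pow_one, sq, mul_smul, e2, show r • v + (r • v - v) = (r • v + r • v) - v by abel, hW,
          zero_sub, eq_comm, eq_neg_iff_add_eq_zero, hW]
      have := CfsgLib.Cores.le_pCore hR (fun v => hx v : x ∈ R)
      rwa [hcore, Subgroup.mem_bot] at this
  have hzero : ∀ w : W, w ∈ (fixedSub A₀ : AddSubgroup W) → w ∈ (fixedSub A₁ : AddSubgroup W) →
      w = 0 := by
    intro w h0 h1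
    have : w ∈ Z0 := by
      rw [hZ0, ← htop]; exact mem_fixedSub_sup.2 ⟨h0, h1⟩
    rwa [hZ, AddSubgroup.mem_bot] at this
  -- semiregularity
  have hsemi : ∀ A A' : Subgroup L, IsMinOffender A W → IsMinOffender A' W →
      (∀ a ∈ A', a ≠ 1 → Inv a) → A ⊔ A' = ⊤ → ∀ b ∈ A, ∀ w ∈ (fixedSub A' : AddSubgroup W),
      w ≠ 0 → b • w = w → b = 1 := by
    intro A A' hA hA' hA'I htop' b hb w hw hw0 hbw
    set St := MulAction.stabilizer L w
    have hSt : St ≠ ⊤ := fun e => hw0 (by
      have : w ∈ Z0 := fun x _ => show x ∈ St by rw [e]; trivial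
      rwa [hZ, AddSubgroup.mem_bot] at this)
    have hA'Q := hproper A' hA' hA'I St (fun a ha => hw a ha) hSt
    have h2 : IsPGroup 2 ((Subgroup.zpowers (⟨b, hbw⟩ : St) ⊔ pCore 2 St).map St.subtype) := by
      refine (IsPGroup.to_sup_of_normal_right ?_ (CfsgLib.Cores.isPGroup_pCore 2 St)).map _
      intro x
      refine ⟨1, Subtype.ext (Subtype.ext ?_)⟩
      have hxA : ((x : St) : L) ∈ A := by
        obtain ⟨k, hk⟩ := Subgroup.mem_zpowers_iff.1 x.2
        rw [← hk, Subgroup.coe_zpow]
        exact zpow_mem hb k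
      show ((x : St) : L) ^ 2 ^ 1 = 1
      rw [pow_one, sq]
      exact hA.1.sq _ hxA
    have hcb : A ⊔ A' ≤ Subgroup.centralizer ({b} : Set L) := by
      refine sup_le (fun a ha => Subgroup.mem_centralizer_singleton_iff.2 ?_) fun a ha => ?_
      · exact hab A (h2grp A hA.1) a ha b hb
      · refine Subgroup.mem_centralizer_singleton_iff.2 ?_
        obtain ⟨q, hq, rfl⟩ := hA'Q ha
        exact hab _ h2 _ ⟨q, Subgroup.mem_sup_right hq, rfl⟩ _
          ⟨_, Subgroup.mem_sup_left (Subgroup.mem_zpowers _), rfl⟩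
    rw [htop', top_le_iff] at hcb
    haveI : (Subgroup.zpowers b).Normal := by
      refine ⟨fun x hx k => ?_⟩
      obtain ⟨i, rfl⟩ := Subgroup.mem_zpowers_iff.1 hx
      have hk : Commute k b := Subgroup.mem_centralizer_singleton_iff.1 (by rw [hcb]; trivial)
      rw [(hk.zpow_right i).eq, mul_inv_cancel_right]
      exact hx
    have : b ∈ pCore 2 L := CfsgLib.Cores.le_pCore ((h2grp A hA.1).to_le
      (Subgroup.zpowers_le.2 hb)) (Subgroup.mem_zpowers b)
    rwa [hcore, Subgroup.mem_bot] at this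
  -- the orbit maps
  have hne : ∀ A : Subgroup L, IsTwoOffender A W → ∃ c ∈ (fixedSub A : AddSubgroup W), c ≠ 0 := by
    intro A hA
    by_contra h
    push_neg at h
    refine hA.ne_bot ((Subgroup.eq_bot_iff_forall A).2 fun a ha => hfaith a fun w => ?_)
    exact sub_eq_zero.1 (h _ (hA.quad a ha w))
  have hquad : ∀ A : Subgroup L, IsMinOffender A W → ∀ a ∈ A, ∀ w : W,
      a • w - w ∈ (fixedSub A : AddSubgroup W) := fun A hA => hA.1.quad
  have hinj : ∀ (A A' : Subgroup L) (hA : IsMinOffender A W), IsMinOffender A' W →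
      (∀ a ∈ A', a ≠ 1 → Inv a) → A ⊔ A' = ⊤ → ∀ w ∈ (fixedSub A' : AddSubgroup W), w ≠ 0 →
      Function.Injective fun a : A => (⟨(a : L) • w - w, hquad A hA a a.2 w⟩ :
        (fixedSub A : AddSubgroup W)) := by
    intro A A' hA hA' hA'I htop' w hw hw0 a a' h
    have e : (a : L) • w = (a' : L) • w := sub_left_injective (congrArg Subtype.val h :)
    have := hsemi A A' hA hA' hA'I htop' _ (mul_mem (inv_mem a'.2) a.2) w hw hw0
      (by rw [mul_smul, e, inv_smul_smul])
    exact Subtype.ext (inv_mul_eq_one.1 this).symm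
  obtain ⟨c, hc, hc0⟩ := hne A₀ hA₀.1
  obtain ⟨w, hw, hw0⟩ := hne A₁ hA₁.1
  have hsum : Nat.card (fixedSub A₀ : AddSubgroup W) * Nat.card (fixedSub A₁ : AddSubgroup W) ≤
      Nat.card W := by
    rw [← Nat.card_prod]
    refine Nat.card_le_card_of_injective (fun z => (z.1 : W) + (z.2 : W)) ?_
    intro z z' h
    have h' : (z.1 : W) - z'.1 = z'.2 - z.2 := by rw [sub_eq_sub_iff_add_eq_add]; exact (show (z.1 : W) + z.2 = z'.1 + z'.2 from h).trans (add_comm _ _)
    have := hzero _ (sub_mem z.1.2 z'.1.2) (by rw [h']; exact sub_mem z'.2.2 z.2.2)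
    rw [this] at h'
    exact Prod.ext (Subtype.ext (sub_eq_zero.1 this)) (Subtype.ext (sub_eq_zero.1 h'.symm).symm)
  have hC : Nat.card (fixedSub A₁ : AddSubgroup W) = Nat.card (fixedSub A₀ : AddSubgroup W) :=
    card_fixed_conj A₀ g
  have hA : Nat.card A₁ = Nat.card A₀ := Subgroup.card_map_of_injective (MulAut.conj g).injective
  have hi0 := hinj A₀ A₁ hA₀ hA₁ (hIconj g) htop w hw hw0
  have hi1 := hinj A₁ A₀ hA₁ hA₀ hA₀I ((sup_comm A₁ A₀).trans htop) c hc hc0
  have hle : Nat.card (fixedSub A₀ : AddSubgroup W) ≤ Nat.card A₀ := by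
    refine Nat.le_of_mul_le_mul_right ?_ (Nat.card_pos (α := (fixedSub A₀ : AddSubgroup W)))
    exact (hC ▸ hsum).trans hA₀.1.offender
  obtain ⟨a, ha⟩ := ((Nat.bijective_iff_injective_and_card _).2
    ⟨hi0, le_antisymm (Nat.card_le_card_of_injective _ hi0) hle⟩).2 ⟨c, hc⟩
  obtain ⟨b, hb⟩ := ((Nat.bijective_iff_injective_and_card _).2
    ⟨hi1, le_antisymm (Nat.card_le_card_of_injective _ hi1) (by rw [hC]; exact hle.trans hA.ge)⟩).2 ⟨w, hw⟩
  have hac : (a : L) • w = c + w := sub_eq_iff_eq_add.1 (congrArg Subtype.val ha)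
  have hbc : (b : L) • c = w + c := sub_eq_iff_eq_add.1 (congrArg Subtype.val hb)
  have hbw : (b : L) • w = w := hw _ b.2
  have hA0c : (a : L) • c = c := hc _ a.2
  have ha1 : (a : L) ≠ 1 := fun e => hc0 (by
    rw [e, one_smul] at hac; exact right_eq_add.1 hac)
  have hb1 : (b : L) ≠ 1 := fun e => hw0 (by
    rw [e, one_smul] at hbc; exact right_eq_add.1 hbc)
  refine hInv _ _ (hA₀I _ a.2 ha1) (hIconj g _ b.2 hb1) ?_
  have s1 : ((a : L) * b) • w = c + w := by rw [mul_smul, hbw, hac]
  have s2 : ((a : L) * b) • (c + w) = c := by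
    rw [mul_smul, smul_add, hbc, hbw, show w + c + w = c + (w + w) by abel, hW, add_zero, hA0c]
  have s3 : ((a : L) * b) • c = w := by
    rw [mul_smul, hbc, smul_add, hac, hA0c, show c + w + c = w + (c + c) by abel, hW, add_zero]
  set t := (a : L) * b
  have h3 : t ^ 3 • w = w := by
    rw [show t ^ 3 = t * t * t by rw [pow_succ, pow_two], mul_smul, mul_smul, s1, s2, s3]
  have hper : ∀ k, t ^ (3 * k) • w = w := fun k => by
    induction k with
    | zero => simp
    | succ k ih => rw [Nat.mul_succ, pow_add, mul_smul, h3, ih]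
  rw [Nat.dvd_iff_mod_eq_zero]
  have hord : t ^ (3 * (orderOf t / 3) + orderOf t % 3) • w = w := by
    rw [Nat.div_add_mod, pow_orderOf_eq_one, one_smul]
  have hlt := Nat.mod_lt (orderOf t) (show 0 < 3 by norm_num)
  rw [add_comm, pow_add, mul_smul, hper] at hord
  interval_cases hr : orderOf t % 3
  · rfl
  · rw [pow_one, s1] at hord
    exact absurd (add_eq_right.1 hord) hc0
  · rw [pow_two, mul_smul, s1, s2] at hord
    exact absurd (hzero w (hord ▸ hc) hw) hw0

/-- **No offender.** A finite group acting faithfully on an elementary abelian `2`-group, with trivial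
`2`-core, abelian `2`-subgroups, and a conjugacy closed set `Inv` no two members of which have product
of order divisible by `3`, has no quadratic offender inside `Inv ∪ {1}`. -/
theorem false_of_isTwoOffender {L : Type u} [Group L] [Finite L] {W : Type v} [AddCommGroup W]
    [Finite W] [DistribMulAction L W] (hW : ∀ w : W, w + w = 0)
    (hfaith : ∀ g : L, (∀ w : W, g • w = w) → g = 1) (hcore : pCore 2 L = ⊥)
    (hab : ∀ S : Subgroup L, IsPGroup 2 S → ∀ a ∈ S, ∀ b ∈ S, Commute a b)
    {Inv : L → Prop} (hInvc : ∀ g a, Inv a → Inv (g * a * g⁻¹))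
    (hInv : ∀ a b, Inv a → Inv b → ¬ 3 ∣ orderOf (a * b))
    {A : Subgroup L} (hA : IsTwoOffender A W) (hAI : ∀ a ∈ A, a ≠ 1 → Inv a) : False := by
  obtain ⟨B, hBA, hB⟩ := exists_isMinOffender_le hA
  exact false_of_isTwoOffender_aux _ L W rfl hW hfaith hcore hab Inv hInvc hInv B hB
    fun a ha => hAI a (hBA ha)

end CfsgLib.QdFree
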