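import Cfsg.Agent.Lib.QdFree.Stable
import Cfsg.Agent.Lib.QdFree.ZJStable

/-!
No `p`-subgroup has a section `SL₂(p)` in its automizer: a class closed under subgroups and under
quotients by normal `p`-subgroups, consisting of `p`-stable groups for odd `p`.
-/

set_option autoImplicit false
set_option linter.style.haveILetI false

open scoped MatrixGroups commutatorElement

universe u v w

namespace CfsgLib.QdFree

open Cfsg

variable {p : ℕ}

/-- `SL₂(p)` is not involved in the automizer of any `p`-subgroup. -/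
def IsSLAutFree (p : ℕ) (G : Type u) [Group G] : Prop :=
  ∀ Q : Subgroup G, IsPGroup p Q → ¬ Involves SL(2, ZMod p) ↥(Subgroup.normalizerMonoidHom Q).range

theorem involves_of_ker_le {H : Type u} [Group H] {G₀ : Type v} [Group G₀] {N : Type v} [Group N]
    {X : Type w} [Group X] (f₁ : N →* H) (hf : Function.Surjective f₁) (f₂ : N →* G₀)
    (hker : f₂.ker ≤ f₁.ker) (h : Involves X H) : Involves X G₀ := by
  refine CfsgLib.Amalgams.involves_of_involves_image (A := f₂.range)
    (MonoidHom.liftOfSurjective f₂.rangeRestrict f₂.rangeRestrict_surjective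
      ⟨f₁, by rw [MonoidHom.ker_rangeRestrict]; exact hker⟩) h fun y => ?_
  obtain ⟨x, rfl⟩ := hf y
  exact ⟨f₂.rangeRestrict x, MonoidHom.liftOfRightInverse_comp_apply _ _ _ _ _⟩

variable {G : Type u} [Group G]

theorem mem_ker_normalizerMonoidHom {Q : Subgroup G} (x : Subgroup.normalizer (Q : Set G)) :
    x ∈ (Subgroup.normalizerMonoidHom Q).ker ↔ ∀ q ∈ Q, q * (x : G) = x * q := by
  rw [Subgroup.normalizerMonoidHom_ker, Subgroup.mem_subgroupOf, Subgroup.mem_centralizer_iff]
  rfl

theorem IsSLAutFree.subgroup (h : IsSLAutFree p G) (M : Subgroup G) : IsSLAutFree p M := by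
  intro Q hQ hinv
  refine h (Q.map M.subtype) (hQ.map _) ?_
  let j : Subgroup.normalizer (Q : Set M) →* Subgroup.normalizer ((Q.map M.subtype : Subgroup G) : Set G) :=
    (M.subtype.comp (Subgroup.subtype _)).codRestrict _ fun x =>
      Subgroup.le_normalizer_map M.subtype ⟨x, x.2, rfl⟩
  refine involves_of_ker_le (N := Subgroup.normalizer (Q : Set M)) (Subgroup.normalizerMonoidHom Q).rangeRestrict
    (MonoidHom.rangeRestrict_surjective _) ((Subgroup.normalizerMonoidHom (Q.map M.subtype)).rangeRestrict.comp j)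
    (fun x hx => ?_) hinv
  rw [MonoidHom.ker_rangeRestrict, mem_ker_normalizerMonoidHom]
  rw [MonoidHom.mem_ker, MonoidHom.comp_apply, ← MonoidHom.mem_ker, MonoidHom.ker_rangeRestrict,
    mem_ker_normalizerMonoidHom] at hx
  exact fun q hq => Subtype.ext (hx _ ⟨q, hq, rfl⟩)

theorem IsSLAutFree.quotient [Fact p.Prime] [Finite G] (h : IsSLAutFree p G) (K : Subgroup G) [K.Normal]
    (hK : IsPGroup p K) : IsSLAutFree p (G ⧸ K) := by
  intro Pb hPb hinv
  let P := Pb.comap (QuotientGroup.mk' K)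
  refine h P (hPb.comap_of_ker_isPGroup _ (by rwa [QuotientGroup.ker_mk'])) ?_
  have hnorm : ∀ x : G, x ∈ Subgroup.normalizer (P : Set G) ↔
      QuotientGroup.mk' K x ∈ Subgroup.normalizer (Pb : Set (G ⧸ K)) := by
    intro x
    rw [Subgroup.mem_normalizer_iff, Subgroup.mem_normalizer_iff]
    constructor
    · intro hx yb
      obtain ⟨y, rfl⟩ := QuotientGroup.mk'_surjective K yb
      simpa [P] using hx y
    · intro hx y
      simpa [P] using hx (QuotientGroup.mk' K y)
  let j : Subgroup.normalizer (P : Set G) →* Subgroup.normalizer (Pb : Set (G ⧸ K)) :=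
    ((QuotientGroup.mk' K).comp (Subgroup.subtype _)).codRestrict _ fun x => (hnorm x).1 x.2
  have hj : Function.Surjective j := by
    rintro ⟨yb, hyb⟩
    obtain ⟨y, rfl⟩ := QuotientGroup.mk'_surjective K yb
    exact ⟨⟨y, (hnorm y).2 hyb⟩, rfl⟩
  refine involves_of_ker_le (N := Subgroup.normalizer (P : Set G))
    ((Subgroup.normalizerMonoidHom Pb).rangeRestrict.comp j)
    ((MonoidHom.rangeRestrict_surjective _).comp hj)
    (Subgroup.normalizerMonoidHom P).rangeRestrict (fun x hx => ?_) hinv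
  rw [MonoidHom.ker_rangeRestrict, mem_ker_normalizerMonoidHom] at hx
  rw [MonoidHom.mem_ker, MonoidHom.comp_apply, ← MonoidHom.mem_ker, MonoidHom.ker_rangeRestrict,
    mem_ker_normalizerMonoidHom]
  intro qb hqb
  obtain ⟨q, rfl⟩ := QuotientGroup.mk'_surjective K qb
  exact congrArg (QuotientGroup.mk' K) (hx q hqb)

theorem IsSLAutFree.stable [hp : Fact p.Prime] [Finite G] (hp2 : p ≠ 2) (h : IsSLAutFree p G) :
    IsNormalizerPStable p G := by
  classical
  intro P hP g hg hq
  set N := Subgroup.normalizer (P : Set G)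
  set C := (Subgroup.centralizer (P : Set G)).subgroupOf N
  haveI : C.Normal := by
    rw [show C = (Subgroup.normalizerMonoidHom P).ker from (Subgroup.normalizerMonoidHom_ker P).symm]
    infer_instance
  let π := QuotientGroup.mk' C
  have hqg := CfsgLib.ThompsonJ.quadratic_zpowers_iff.1 hq
  refine CfsgLib.Subnormal.mem_pCore_of_forall_closure_pair fun q => ?_
  obtain ⟨n, rfl⟩ := QuotientGroup.mk'_surjective C q
  let g' : N := ⟨g, hg⟩
  intro r
  have hr : (r : N ⧸ C) ∈ (Subgroup.closure ({g', n * g' * n⁻¹} : Set N)).map π := by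
    rw [MonoidHom.map_closure, Set.image_pair, map_mul, map_mul, map_inv]
    exact r.2
  obtain ⟨c, hc, hcr⟩ := hr
  by_contra hk
  push Not at hk
  let R := (Subgroup.normalizerMonoidHom P).range
  let φ : R →* MulAut P := R.subtype
  let X := P ⋊[φ] R
  haveI : Finite X := Finite.of_equiv _ SemidirectProduct.equivProd.symm
  let inl : P →* X := SemidirectProduct.inl
  let inr : R →* X := SemidirectProduct.inr
  let ρ : N →* R := (Subgroup.normalizerMonoidHom P).rangeRestrict
  let P' : Subgroup X := inl.range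
  have hP' : IsPGroup p P' := hP.of_surjective inl.rangeRestrict inl.rangeRestrict_surjective
  have hcj : ∀ (a : N) (v : P), inr (ρ a) * inl v * (inr (ρ a))⁻¹ =
      inl (Subgroup.normalizerMonoidHom P a v) := fun a v => by rw [← map_inv]; exact (SemidirectProduct.inl_aut (φ := φ) (ρ a) v).symm
  have hnorm : ∀ a : N, inr (ρ a) ∈ Subgroup.normalizer (P' : Set X) := fun a =>
    Subgroup.mem_normalizer_fintype fun _ hv => by
      obtain ⟨v, rfl⟩ := hv
      exact ⟨_, (hcj a v).symm⟩
  have hquad : ∀ a : N, (∀ v ∈ P, ⁅⁅v, (a : G)⁆, (a : G)⁆ = 1) →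
      ∀ x ∈ P', ⁅⁅x, inr (ρ a)⁆, inr (ρ a)⁆ = 1 := by
    rintro a ha _ ⟨v, rfl⟩
    have e : ∀ w : P, ⁅inl w, inr (ρ a)⁆ = inl (w * (Subgroup.normalizerMonoidHom P a w)⁻¹) := fun w => by
      rw [map_mul, map_inv, ← hcj, commutatorElement_def]
      erw [mul_inv_rev, mul_inv_rev, inv_inv]
      simp [mul_assoc]
    rw [e, e, ← map_one inl]
    congr 1
    apply Subtype.ext
    have h1 := ha v v.2
    simp only [commutatorElement_def] at h1
    rw [Subgroup.coe_one, ← h1]
    show (v : G) * ((a : G) * v * (a : G)⁻¹)⁻¹ *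
      ((a : G) * ((v : G) * ((a : G) * v * (a : G)⁻¹)⁻¹) * (a : G)⁻¹)⁻¹ = _
    group
  have hh : ∀ v ∈ P, ⁅⁅v, ((n * g' * n⁻¹ : N) : G)⁆, ((n * g' * n⁻¹ : N) : G)⁆ = 1 := by
    intro v hv
    have hv' : (n : G)⁻¹ * v * (n : G) ∈ P := (Subgroup.mem_normalizer_iff''.1 n.2 v).1 hv
    have h2 := congrArg (fun t => (n : G) * t * (n : G)⁻¹) (hqg _ hv')
    simp only [commutatorElement_def, mul_one, mul_inv_cancel] at h2
    rw [← h2]
    simp only [commutatorElement_def, Subgroup.coe_mul, Subgroup.coe_inv, g']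
    group
  have hcX : inr (ρ c) ∈ Subgroup.closure ({inr (ρ g'), inr (ρ (n * g' * n⁻¹))} : Set X) := by
    have := Subgroup.mem_map_of_mem (inr.comp ρ) hc
    rwa [MonoidHom.map_closure, Set.image_pair] at this
  have hinv := involves_qd_of_quadratic_pair hp2 hP' (hnorm g') (hnorm _) (hquad g' hqg) (hquad _ hh) hcX
    fun k hck => hk k (Subtype.ext (by
      rw [SubmonoidClass.coe_pow, ← hcr, ← map_pow]
      refine (QuotientGroup.eq_one_iff _).2 ?_
      refine Subgroup.mem_subgroupOf.2 (Subgroup.mem_centralizer_iff.2 fun v hv => ?_)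
      have h1 := (Subgroup.mem_centralizer_iff.1 hck) (inl ⟨v, hv⟩) ⟨_, rfl⟩
      rw [← map_pow, ← map_pow, eq_comm, ← mul_inv_eq_iff_eq_mul, hcj] at h1
      have h2 : ((c ^ p ^ k : N) : G) * v * ((c ^ p ^ k : N) : G)⁻¹ = v :=
        congrArg Subtype.val (SemidirectProduct.inl_injective h1)
      exact (mul_inv_eq_iff_eq_mul.1 h2).symm))
  -- kill the normal `p`-subgroup
  have hSL : Involves SL(2, ZMod p) X := CfsgLib.Amalgams.involves_mono
    (Amalgams.Qd.lin : qdOver (ZMod p) →* SL(2, ZMod p))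
    (fun A => ⟨Amalgams.Qd.aff A 0 0, Amalgams.Qd.lin_aff A 0 0⟩) hinv
  obtain ⟨K, f, hf⟩ := CfsgLib.Amalgams.exists_surjective_of_involves hSL
  let fR : K →* R := SemidirectProduct.rightHom.comp K.subtype
  refine h P hP (CfsgLib.Amalgams.involves_of_involves_image (A := fR.range)
    (MonoidHom.liftOfSurjective fR.rangeRestrict fR.rangeRestrict_surjective ⟨f, ?_⟩)
    ⟨⊤, ⊥, inferInstance, ⟨?_⟩⟩ fun y => ?_)
  · rw [MonoidHom.ker_rangeRestrict]
    intro k hk
    have hp' : IsPGroup p fR.ker := by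
      have e : fR.ker = (SemidirectProduct.rightHom : X →* R).ker.subgroupOf K := rfl
      rw [e, ← SemidirectProduct.range_inl_eq_ker_rightHom]
      exact hP'.comap_subtype
    haveI : (fR.ker.map f).Normal := Subgroup.Normal.map inferInstance f hf
    have := CfsgLib.Cores.le_pCore (hp'.map f) ⟨k, hk, rfl⟩
    rwa [Amalgams.Qd.pCore_SL2_eq_bot, Subgroup.mem_bot] at this
  · exact (QuotientGroup.quotientMulEquivOfEq (by simp)).trans
      (QuotientGroup.quotientBot.trans Subgroup.topEquiv)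
  · obtain ⟨x, rfl⟩ := hf y
    exact ⟨fR.rangeRestrict x, MonoidHom.liftOfRightInverse_comp_apply _ _ _ _ _⟩

theorem isStableClass_isSLAutFree [Fact p.Prime] (hp2 : p ≠ 2) :
    IsStableClass.{u} p (fun H _ _ => IsSLAutFree p H) :=
  ⟨fun _ _ _ M h => h.subgroup M, fun _ _ _ Q _ hQ _ h => h.quotient Q hQ, fun _ _ _ h => h.stable hp2⟩

end CfsgLib.QdFree
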